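import Cfsg.Agent.H883.BR.Fam
import Cfsg.Agent.S0245
import Cfsg.Agent.S0246
import Cfsg.Agent.S0269
import Cfsg.Agent.S0270

/-!
# HUB BR: `Sp_{2m}(q)` is quasisimple, its order, an element of order `q - 1` (helper178)

* `qs_of_simple`, `qs`;
* `card_le : |Sp_{2m}(q)| ≤ q ^ (2 m² + m)`, `le_card_quot : q ≤ |Sp / Z|`;
* `exists_pow_ne`.
-/

set_option autoImplicit false

namespace Cfsg.Agent.H178.BR.Sp

open Cfsg Cfsg.Agent.H883.BR

universe w

/-- a perfect group with simple central quotient is quasisimple -/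
theorem qs_of_simple {G : Type w} [Group G] (hp : commutator G = ⊤) (hs : IsSimpleGroup (G ⧸ Subgroup.center G)) :
    QS G where
  perf := hp
  nt := by
    by_contra hcon
    rw [not_nontrivial_iff_subsingleton] at hcon
    have h1 : Nontrivial (G ⧸ Subgroup.center G) := hs.toNontrivial
    have h2 : Subsingleton (G ⧸ Subgroup.center G) := ⟨fun a b => by
      obtain ⟨x, rfl⟩ := QuotientGroup.mk_surjective a
      obtain ⟨y, rfl⟩ := QuotientGroup.mk_surjective b
      rw [Subsingleton.elim x y]⟩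
    exact (not_nontrivial_iff_subsingleton.2 h2) h1
  max N hN := by
    have h1 : (N.map (QuotientGroup.mk' (Subgroup.center G))).Normal :=
      hN.map _ (QuotientGroup.mk'_surjective _)
    rcases hs.eq_bot_or_eq_top_of_normal _ h1 with h | h
    · left
      rw [Subgroup.map_eq_bot_iff, QuotientGroup.ker_mk'] at h
      exact h
    · right
      rw [eq_top_iff, ← hp, commutator_def, Subgroup.commutator_le]
      intro g _ h' _
      have h2 : (QuotientGroup.mk' (Subgroup.center G)) g ∈ N.map (QuotientGroup.mk' (Subgroup.center G)) := by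
        rw [h]
        exact Subgroup.mem_top _
      obtain ⟨n, hn, hgn⟩ := h2
      have h3 : n⁻¹ * g ∈ Subgroup.center G := QuotientGroup.eq.1 hgn
      have h4 := Subgroup.mem_center_iff.1 h3 h'
      have h5 : g * h' * g⁻¹ * h'⁻¹ = n * (h' * n⁻¹ * h'⁻¹) := by
        calc g * h' * g⁻¹ * h'⁻¹ = n * ((n⁻¹ * g) * h') * g⁻¹ * h'⁻¹ := by group
          _ = n * (h' * (n⁻¹ * g)) * g⁻¹ * h'⁻¹ := by rw [h4]
          _ = _ := by group
      rw [commutatorElement_def, h5]
      exact N.mul_mem hn (hN.conj_mem _ (N.inv_mem hn) _)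

section

variable {F : Type*} [Field F] [Fintype F]

/-- **`Sp_{2m}(q)` is quasisimple** -/
theorem qs {m : ℕ} (hm : 2 ≤ m) (h : 3 ≤ Fintype.card F) : QS (Matrix.symplecticGroup (Fin m) F) :=
  qs_of_simple (Cfsg.Agent.S0269.result m (by
    rcases Nat.lt_or_ge m 3 with h3 | h3
    · exact Or.inr (Or.inl ⟨by omega, h⟩)
    · exact Or.inl h3)) (Cfsg.Agent.S0270.result (F := F) m hm fun _ => h)

/-- the order -/
theorem card_le (m : ℕ) : Nat.card (Matrix.symplecticGroup (Fin m) F) ≤ Fintype.card F ^ (2 * m ^ 2 + m) := by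
  rw [Cfsg.Agent.S0245.result rfl m]
  have h1 : ∏ i ∈ Finset.range m, (Fintype.card F ^ (2 * (i + 1)) - 1) ≤
      ∏ i ∈ Finset.range m, Fintype.card F ^ (2 * (i + 1)) := Finset.prod_le_prod' fun i _ => Nat.sub_le _ _
  refine (Nat.mul_le_mul_left _ h1).trans ?_
  rw [Finset.prod_pow_eq_pow_sum, ← pow_add]
  refine Nat.pow_le_pow_right Fintype.card_pos ?_
  have h2 : ∑ i ∈ Finset.range m, 2 * (i + 1) = m ^ 2 + m := by
    induction m with
    | zero => rfl
    | succ k ih =>
      rw [Finset.sum_range_succ, ih (Finset.prod_le_prod' fun i _ => Nat.sub_le _ _)]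
      ring
  rw [h2]
  omega

/-- the size of the simple quotient -/
theorem le_card_quot {m : ℕ} (hm : 1 ≤ m) : Fintype.card F ≤
    Nat.card (Matrix.symplecticGroup (Fin m) F ⧸ Subgroup.center (Matrix.symplecticGroup (Fin m) F)) := by
  have hq : 1 < Fintype.card F := Fintype.one_lt_card
  have h1 := Subgroup.card_eq_card_quotient_mul_card_subgroup (Subgroup.center (Matrix.symplecticGroup (Fin m) F))
  rw [Cfsg.Agent.S0246.result rfl m hm, Cfsg.Agent.S0245.result rfl m] at h1
  have h2 : Nat.gcd 2 (Fintype.card F - 1) ≤ 2 := Nat.gcd_le_left _ (by norm_num)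
  have h3 : Fintype.card F ≤ Fintype.card F ^ (m ^ 2) := by
    calc Fintype.card F = Fintype.card F ^ 1 := (pow_one _).symm
      _ ≤ _ := Nat.pow_le_pow_right (by omega) (Nat.one_le_pow _ _ (by omega))
  have h4 : ∀ i ∈ Finset.range m, 1 ≤ Fintype.card F ^ (2 * (i + 1)) - 1 := fun i _ => by
    have : 1 < Fintype.card F ^ (2 * (i + 1)) := Nat.one_lt_pow (by omega) hq
    omega
  have h5 : Fintype.card F ^ (2 * (0 + 1)) - 1 ≤ ∏ i ∈ Finset.range m, (Fintype.card F ^ (2 * (i + 1)) - 1) :=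
    Finset.single_le_prod' h4 (Finset.mem_range.2 (by omega))
  have h6 : 2 ≤ Fintype.card F ^ (2 * (0 + 1)) - 1 := by
    have : 2 ^ 2 ≤ Fintype.card F ^ (2 * (0 + 1)) := Nat.pow_le_pow_left hq _
    omega
  have h7 : Fintype.card F * 2 ≤ Fintype.card F ^ (m ^ 2) *
      ∏ i ∈ Finset.range m, (Fintype.card F ^ (2 * (i + 1)) - 1) := Nat.mul_le_mul h3 (h6.trans h5)
  rw [h1] at h7
  have h8 := h7.trans (Nat.mul_le_mul_left _ h2)
  exact Nat.le_of_mul_le_mul_right h8 (by norm_num)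

omit [Fintype F] in
/-- the diagonal matrices `diag(t, t⁻¹)` -/
theorem diag_mem (m : ℕ) {t : F} (ht : t ≠ 0) :
    Matrix.diagonal (Sum.elim (fun _ : Fin m => t) fun _ : Fin m => t⁻¹) ∈ Matrix.symplecticGroup (Fin m) F := by
  rw [SymplecticGroup.mem_iff, Matrix.diagonal_transpose]
  ext i j
  rw [Matrix.mul_diagonal, Matrix.diagonal_mul]
  rcases i with i | i <;> rcases j with j | j <;> by_cases h : i = j <;>
    simp [Matrix.J, Matrix.fromBlocks, h, ht]

/-- **an element of order `q - 1`** -/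
theorem exists_pow_ne {m : ℕ} (hm : 1 ≤ m) {k : ℕ} (hk : 0 < k) (hk' : k + 1 < Fintype.card F) :
    ∃ g : Matrix.symplecticGroup (Fin m) F, g ^ k ≠ 1 := by
  classical
  obtain ⟨u, hu⟩ := IsCyclic.exists_generator (α := Fˣ)
  have hou : orderOf u = Fintype.card F - 1 := by
    rw [orderOf_eq_card_of_forall_mem_zpowers hu, Nat.card_eq_fintype_card, Fintype.card_units]
  refine ⟨⟨_, diag_mem m u.ne_zero⟩, fun h => ?_⟩
  have h1 := congrArg (fun A : Matrix.symplecticGroup (Fin m) F => (A : Matrix (Fin m ⊕ Fin m) (Fin m ⊕ Fin m) F)) h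
  have h2 : (Matrix.diagonal (Sum.elim (fun _ : Fin m => (u : F)) fun _ : Fin m => (u : F)⁻¹)) ^ k =
      (1 : Matrix (Fin m ⊕ Fin m) (Fin m ⊕ Fin m) F) := h1
  rw [Matrix.diagonal_pow] at h2
  have h3 := congrFun (congrFun h2 (Sum.inl ⟨0, hm⟩)) (Sum.inl ⟨0, hm⟩)
  rw [Matrix.diagonal_apply_eq, Matrix.one_apply_eq, Pi.pow_apply, Sum.elim_inl] at h3
  have h4 : u ^ k = 1 := Units.ext (by rw [Units.val_pow_eq_pow_val, h3, Units.val_one])
  have h5 := Nat.le_of_dvd hk (orderOf_dvd_of_pow_eq_one h4)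
  omega

end

end Cfsg.Agent.H178.BR.Sp
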