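import Mathlib

/-!
# Traces and semilinear maps (helper178)

* `trace_semi`, `det_semi` : `φ : W → W` additive, injective, `τ`-semilinear, `φ ∘ f = g ∘ φ` : `τ (tr f) = tr g`,
  `τ (det f) = det g`;
* `mem_of_frob` : the elements with `c ^ q = c` lie in the subfield with `q` elements;
* `trace_mem`, `trace_mem_sub` : traces in the subfield with `q` elements.
-/

set_option autoImplicit false

namespace Cfsg.Agent.H178.BR

section semi

variable {K W : Type*} [Field K] [AddCommGroup W] [Module K W] [FiniteDimensional K W]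

/-- the image of a basis under an injective semilinear map -/
theorem exists_basis_semi (τ : K ≃+* K) (φ : W →+ W) (hφ : ∀ (c : K) (w : W), φ (c • w) = τ c • φ w)
    (hi : Function.Injective φ) :
    ∃ b b' : Module.Basis (Fin (Module.finrank K W)) K W, ∀ i, b' i = φ (b i) := by
  classical
  let b := Module.finBasis K W
  have hli : LinearIndependent K fun i => φ (b i) := by
    rw [Fintype.linearIndependent_iff]
    intro c hc i
    have h1 : φ (∑ i, τ.symm (c i) • b i) = 0 := by
      rw [map_sum, ← hc]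
      refine Finset.sum_congr rfl fun i _ => ?_
      rw [hφ, RingEquiv.apply_symm_apply]
    have h2 : ∑ i, τ.symm (c i) • b i = 0 := hi (h1.trans (map_zero φ).symm)
    have h3 := (Fintype.linearIndependent_iff.1 b.linearIndependent) _ h2 i
    have h4 : τ (τ.symm (c i)) = τ 0 := congrArg τ h3
    rwa [RingEquiv.apply_symm_apply, map_zero] at h4
  exact ⟨b, Module.Basis.mk hli (hli.span_eq_top_of_card_eq_finrank' (Fintype.card_fin _)).ge, fun i => by
    rw [Module.Basis.mk_apply]⟩

omit [FiniteDimensional K W] in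
theorem toMatrix_semi {ι : Type*} [Fintype ι] [DecidableEq ι] (τ : K ≃+* K) (φ : W →+ W)
    (hφ : ∀ (c : K) (w : W), φ (c • w) = τ c • φ w) (b b' : Module.Basis ι K W) (hb : ∀ i, b' i = φ (b i))
    {f g : Module.End K W} (h : ∀ w, φ (f w) = g (φ w)) :
    LinearMap.toMatrix b' b' g = (LinearMap.toMatrix b b f).map τ := by
  ext i j
  rw [Matrix.map_apply, LinearMap.toMatrix_apply, LinearMap.toMatrix_apply, hb, ← h]
  have h1 : f (b j) = ∑ k, b.repr (f (b j)) k • b k := (b.sum_repr _).symm
  have h2 : φ (f (b j)) = ∑ k, τ (b.repr (f (b j)) k) • b' k := by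
    conv_lhs => rw [h1]
    rw [map_sum]
    refine Finset.sum_congr rfl fun k _ => ?_
    rw [hφ, hb]
  rw [h2, Module.Basis.repr_sum_self]

/-- **traces and semilinear maps** -/
theorem trace_semi (τ : K ≃+* K) (φ : W →+ W) (hφ : ∀ (c : K) (w : W), φ (c • w) = τ c • φ w)
    (hi : Function.Injective φ) {f g : Module.End K W} (h : ∀ w, φ (f w) = g (φ w)) :
    τ (LinearMap.trace K W f) = LinearMap.trace K W g := by
  classical
  obtain ⟨b, b', hb⟩ := exists_basis_semi τ φ hφ hi
  rw [LinearMap.trace_eq_matrix_trace K b f, LinearMap.trace_eq_matrix_trace K b' g,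
    toMatrix_semi τ φ hφ b b' hb h, Matrix.trace, Matrix.trace, map_sum]
  rfl

/-- **determinants and semilinear maps** -/
theorem det_semi (τ : K ≃+* K) (φ : W →+ W) (hφ : ∀ (c : K) (w : W), φ (c • w) = τ c • φ w)
    (hi : Function.Injective φ) {f g : Module.End K W} (h : ∀ w, φ (f w) = g (φ w)) :
    τ (LinearMap.det f) = LinearMap.det g := by
  classical
  obtain ⟨b, b', hb⟩ := exists_basis_semi τ φ hφ hi
  rw [← LinearMap.det_toMatrix b f, ← LinearMap.det_toMatrix b' g, toMatrix_semi τ φ hφ b b' hb h]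
  exact (RingHom.map_det (τ : K →+* K) _)

/-- if `φ f φ⁻¹ = c f` then `(tr f) ^ dim` is fixed by `τ`, provided `det f = 1` -/
theorem trace_pow_semi (τ : K ≃+* K) (φ : W →+ W) (hφ : ∀ (c : K) (w : W), φ (c • w) = τ c • φ w)
    (hi : Function.Injective φ) {f : Module.End K W} {c : K} (h : ∀ w, φ (f w) = c • f (φ w))
    (hdet : LinearMap.det f = 1) :
    τ ((LinearMap.trace K W f) ^ Module.finrank K W) = (LinearMap.trace K W f) ^ Module.finrank K W := by
  have h' : ∀ w, φ (f w) = (c • f) (φ w) := fun w => by rw [h, LinearMap.smul_apply]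
  have h1 := trace_semi τ φ hφ hi h'
  have h2 := det_semi τ φ hφ hi h'
  rw [LinearMap.det_smul, hdet, map_one, mul_one] at h2
  rw [map_pow, h1, map_smul, smul_eq_mul, mul_pow, ← h2, one_mul]

end semi

section frob

variable {K : Type*} [Field K]

/-- the subfield with `q` elements consists of the solutions of `c ^ q = c` -/
theorem mem_of_frob {F : Subfield K} [Finite F] {c : K} (hc : c ^ Nat.card F = c) : c ∈ F := by
  classical
  have := Fintype.ofFinite F
  have hq : 1 < Nat.card F := by
    rw [Nat.card_eq_fintype_card]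
    exact Fintype.one_lt_card
  by_contra h
  let P : Polynomial K := Polynomial.X ^ Nat.card F - Polynomial.X
  have hP : P ≠ 0 := FiniteField.X_pow_card_sub_X_ne_zero K hq
  have hdeg : P.natDegree = Nat.card F := FiniteField.X_pow_card_sub_X_natDegree_eq K hq
  let s : Finset K := insert c (Finset.univ.image ((↑) : F → K))
  have hs : ∀ a ∈ s, P.IsRoot a := by
    intro a ha
    rw [Finset.mem_insert] at ha
    rw [Polynomial.IsRoot.def, Polynomial.eval_sub, Polynomial.eval_pow, Polynomial.eval_X, sub_eq_zero]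
    rcases ha with rfl | ha
    · exact hc
    · obtain ⟨b, _, rfl⟩ := Finset.mem_image.1 ha
      have := FiniteField.pow_card b
      rw [Nat.card_eq_fintype_card]
      exact_mod_cast this
  have hcard : s.card = Nat.card F + 1 := by
    rw [Finset.card_insert_of_notMem, Finset.card_image_of_injective _ Subtype.val_injective, Finset.card_univ,
      Nat.card_eq_fintype_card]
    intro hcm
    obtain ⟨b, _, hb⟩ := Finset.mem_image.1 hcm
    exact h (hb ▸ b.2)
  have h2 : s ⊆ P.roots.toFinset := fun a ha => by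
    rw [Multiset.mem_toFinset, Polynomial.mem_roots hP]
    exact hs a ha
  have h3 : s.card ≤ P.natDegree := (Finset.card_le_card h2).trans
    ((Multiset.toFinset_card_le _).trans (Polynomial.card_roots' P))
  omega

theorem frob_of_mem {F : Subfield K} [Finite F] {c : K} (hc : c ∈ F) : c ^ Nat.card F = c := by
  have := Fintype.ofFinite F
  have h := congrArg Subtype.val (FiniteField.pow_card (⟨c, hc⟩ : F))
  rw [Nat.card_eq_fintype_card]
  rwa [SubmonoidClass.coe_pow] at h

/-- the trace lies in the subfield with `q` elements -/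
theorem trace_mem {W : Type*} [AddCommGroup W] [Module K W] [FiniteDimensional K W] {F : Subfield K} [Finite F]
    (τ : K ≃+* K) (hτ : ∀ c, τ c = c ^ Nat.card F) (φ : W →+ W) (hφ : ∀ (c : K) (w : W), φ (c • w) = τ c • φ w)
    (hi : Function.Injective φ) {f : Module.End K W} (h : ∀ w, φ (f w) = f (φ w)) :
    LinearMap.trace K W f ∈ F :=
  mem_of_frob (by rw [← hτ]; exact trace_semi τ φ hφ hi h)

/-- the trace on a quotient `W` of a subspace `S` of `E` with a semilinear structure -/
theorem trace_mem_sub {E W : Type*} [AddCommGroup E] [Module K E] [AddCommGroup W] [Module K W]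
    [FiniteDimensional K W] {F : Subfield K} [Finite F] (τ : K ≃+* K) (hτ : ∀ c, τ c = c ^ Nat.card F) (S : Submodule K E)
    (Φ : E →+ E) (hΦ : ∀ (c : K) (X : E), Φ (c • X) = τ c • Φ X) (hS : ∀ X ∈ S, Φ X ∈ S)
    (π : S →ₗ[K] W) (hπ : Function.Surjective π) (hk : ∀ (X : S), π ⟨Φ X, hS X X.2⟩ = 0 ↔ π X = 0)
    {A : Module.End K E} (hA : ∀ X ∈ S, A X ∈ S) (hAΦ : ∀ X ∈ S, Φ (A X) = A (Φ X))
    {f : Module.End K W} (hf : ∀ X : S, f (π X) = π ⟨A X, hA X X.2⟩) : LinearMap.trace K W f ∈ F := by
  classical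
  have key : ∀ X Y : S, π X = π Y → π ⟨Φ X, hS X X.2⟩ = π ⟨Φ Y, hS Y Y.2⟩ := by
    intro X Y h
    have h1 : π (X - Y) = 0 := by rw [map_sub, h, sub_self]
    have h2 := (hk (X - Y)).2 h1
    rw [← sub_eq_zero, ← map_sub, ← h2]
    congr 1
    ext
    simp [map_sub]
  choose s hs using hπ
  let φ : W →+ W :=
    { toFun := fun w => π ⟨Φ (s w), hS _ (s w).2⟩
      map_zero' := by
        have h0 : π (s 0) = π 0 := by rw [hs, map_zero]
        rw [key _ _ h0, ← map_zero π]
        congr 1
        ext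
        simp
      map_add' := fun w w' => by
        have h0 : π (s (w + w')) = π (s w + s w') := by rw [hs, map_add, hs, hs]
        rw [key _ _ h0, ← map_add]
        congr 1
        ext
        simp }
  have hφπ : ∀ X : S, φ (π X) = π ⟨Φ X, hS _ X.2⟩ := fun X => key _ _ (hs _)
  refine trace_mem τ hτ φ (fun c w => ?_) (fun w w' h => ?_) fun w => ?_
  · obtain ⟨X, rfl⟩ : ∃ X, π X = w := ⟨s w, hs w⟩
    rw [← map_smul, hφπ, hφπ, ← map_smul]
    congr 1
    ext
    simp [hΦ]
  · obtain ⟨X, rfl⟩ : ∃ X, π X = w := ⟨s w, hs w⟩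
    obtain ⟨Y, rfl⟩ : ∃ X, π X = w' := ⟨s w', hs w'⟩
    rw [hφπ, hφπ] at h
    have h1 : π ⟨Φ ↑(X - Y), hS _ (X - Y).2⟩ = 0 := by
      rw [← sub_eq_zero, ← map_sub] at h
      rw [← h]
      congr 1
      ext
      simp [map_sub]
    have h2 := (hk (X - Y)).1 h1
    rw [map_sub, sub_eq_zero] at h2
    exact h2
  · obtain ⟨X, rfl⟩ : ∃ X, π X = w := ⟨s w, hs w⟩
    rw [hf, hφπ, hφπ, hf]
    congr 1
    ext
    exact hAΦ X X.2

end frob

end Cfsg.Agent.H178.BR
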